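import Mathlib

/-!
# `2`-parts of the orders of general linear groups (helper89, S4311 / S3851)

* `fac_pow` : `(x ^ m - 1)_2 = (x - 1)_2` for `x` and `m` odd;
* `fac_add` : `(x ^ (b + j) - 1)_2 = (x ^ j - 1)_2` if `1 ≤ j ≤ 2 ^ k` and `2 ^ (k + 1) ∣ b`;
* `fac_card_GL` : the `2`-part of `|GL_n(F)|`, `|F|` odd;
* `fac_blocks` : `|GL_{a + b}(F)|_2 = |GL_a(F₀)|_2 |GL_b(F₀)|_2` if `a = 2 ^ k`, `2 ^ (k + 1) ∣ b` and `|F| = |F₀| ^ m`, `m` odd.
-/

set_option autoImplicit false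

namespace Cfsg.Agent.H89.RV

open Finset Matrix

/-- `(x ^ m - 1)_2 = (x - 1)_2` for `x`, `m` odd -/
theorem fac_pow {x m : ℕ} (hx : Odd x) (hx1 : 1 < x) (hm : Odd m) :
    (x ^ m - 1).factorization 2 = (x - 1).factorization 2 := by
  have h1 : (∑ i ∈ range m, x ^ i) * (x - 1) = x ^ m - 1 := geom_sum_mul_of_one_le hx1.le m
  have h2 : Odd (∑ i ∈ range m, x ^ i) := by
    rw [Finset.odd_sum_iff_odd_card_odd, Finset.filter_true_of_mem fun i _ => hx.pow, card_range]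
    exact hm
  rw [← h1, Nat.factorization_mul h2.pos.ne' (by omega), Finsupp.add_apply,
    Nat.factorization_eq_zero_of_not_dvd fun h => (Nat.not_even_iff_odd.2 h2) (even_iff_two_dvd.2 h), zero_add]

theorem fac_add {x : ℕ} (hx : Odd x) (hx1 : 1 < x) {k b j : ℕ} (hb : 2 ^ (k + 1) ∣ b) (hj : 1 ≤ j) (hj' : j ≤ 2 ^ k) :
    (x ^ (b + j) - 1).factorization 2 = (x ^ j - 1).factorization 2 := by
  obtain ⟨v, m, hm, hv⟩ := Nat.exists_eq_two_pow_mul_odd (n := j) (by omega)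
  have hvk : v ≤ k := by
    by_contra h
    have h1 : 2 ^ (k + 1) ≤ 2 ^ v := Nat.pow_le_pow_right (by norm_num) (by omega)
    have h2 : 2 ^ v ≤ j := by rw [hv]; exact Nat.le_mul_of_pos_right _ hm.pos
    have h3 : 2 ^ (k + 1) = 2 * 2 ^ k := by ring
    have h4 : 0 < 2 ^ k := by positivity
    omega
  obtain ⟨c, hc⟩ : 2 ^ (v + 1) ∣ b := (Nat.pow_dvd_pow 2 (by omega)).trans hb
  have e1 : b + j = 2 ^ v * (2 * c + m) := by rw [hc, hv]; ring
  have hodd : Odd (x ^ 2 ^ v) := hx.pow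
  have h1 : 1 < x ^ 2 ^ v := Nat.one_lt_pow (by positivity) hx1
  rw [e1, hv, pow_mul, pow_mul, fac_pow hodd h1 hm, fac_pow hodd h1 ((even_two_mul c).add_odd hm)]

/-- the exponent of `2` in `|GL_n(q)|` -/
def vs (q n : ℕ) : ℕ := ∑ j ∈ range n, (q ^ (j + 1) - 1).factorization 2

theorem fac_card_GL {F : Type*} [Field F] [Fintype F] (hodd : Odd (Fintype.card F)) (n : ℕ) :
    (Nat.card (GL (Fin n) F)).factorization 2 = vs (Fintype.card F) n := by
  have h1 : 1 < Fintype.card F := Fintype.one_lt_card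
  rw [Matrix.card_GL_field, Fin.prod_univ_eq_prod_range (fun i => Fintype.card F ^ n - Fintype.card F ^ i),
    Nat.factorization_prod]
  · rw [Finsupp.finsetSum_apply, vs, ← Finset.sum_range_reflect]
    refine Finset.sum_congr rfl fun i hi => ?_
    have hi' := Finset.mem_range.1 hi
    have h2 : Fintype.card F ^ n - Fintype.card F ^ (n - 1 - i) =
        Fintype.card F ^ (n - 1 - i) * (Fintype.card F ^ (i + 1) - 1) := by
      rw [Nat.mul_sub, mul_one, ← pow_add]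
      congr 2
      omega
    rw [h2, Nat.factorization_mul (pow_ne_zero _ (by omega))
      (Nat.sub_ne_zero_of_lt (Nat.one_lt_pow (by omega) h1)), Finsupp.add_apply,
      Nat.factorization_eq_zero_of_not_dvd (fun h => (Nat.not_even_iff_odd.2 (hodd.pow : Odd _)) (even_iff_two_dvd.2 h)),
      zero_add]
  · intro i hi
    have hi' := Finset.mem_range.1 hi
    exact Nat.sub_ne_zero_of_lt (Nat.pow_lt_pow_right h1 hi')

theorem vs_pow {q m : ℕ} (hq : Odd q) (h1 : 1 < q) (hm : Odd m) (n : ℕ) : vs (q ^ m) n = vs q n := by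
  refine Finset.sum_congr rfl fun j _ => ?_
  rw [← pow_mul, mul_comm, pow_mul]
  exact fac_pow hq.pow (Nat.one_lt_pow (by omega) h1) hm

theorem vs_add {q : ℕ} (hq : Odd q) (h1 : 1 < q) {k b : ℕ} (hb : 2 ^ (k + 1) ∣ b) :
    vs q (2 ^ k + b) = vs q (2 ^ k) + vs q b := by
  rw [add_comm (2 ^ k) b, vs, Finset.sum_range_add, ← vs, add_comm]
  congr 1
  refine Finset.sum_congr rfl fun j hj => ?_
  have hj' := Finset.mem_range.1 hj
  rw [add_assoc]
  exact fac_add hq h1 hb (by omega) (by omega)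

/-- **`|GL_{a + b}(F)|_2 = |GL_a(F₀)|_2 |GL_b(F₀)|_2`**, `a = 2 ^ k`, `2 ^ (k + 1) ∣ b`, `|F| = |F₀| ^ m`, `m` odd -/
theorem fac_blocks {F F₀ : Type*} [Field F] [Fintype F] [Field F₀] [Fintype F₀] {m : ℕ} (hm : Odd m)
    (hodd : Odd (Fintype.card F)) (hF : Fintype.card F = Fintype.card F₀ ^ m) {k b : ℕ} (hb : 2 ^ (k + 1) ∣ b) :
    (Nat.card (GL (Fin (2 ^ k + b)) F)).factorization 2 =
      (Nat.card (GL (Fin (2 ^ k)) F₀ × GL (Fin b) F₀)).factorization 2 := by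
  have h0 : Odd (Fintype.card F₀) := by
    rw [hF] at hodd
    exact (Nat.odd_pow_iff hm.pos.ne').1 hodd
  have h1 : 1 < Fintype.card F₀ := Fintype.one_lt_card
  rw [Nat.card_prod, Nat.factorization_mul Nat.card_pos.ne' Nat.card_pos.ne', Finsupp.add_apply, fac_card_GL hodd,
    fac_card_GL h0, fac_card_GL h0, hF, vs_pow h0 h1 hm, vs_add h0 h1 hb]

/-- `n = 2 ^ k + b` with `2 ^ (k + 1) ∣ b` -/
theorem exists_digit {n : ℕ} (hn : n ≠ 0) : ∃ k b : ℕ, n = 2 ^ k + b ∧ 2 ^ (k + 1) ∣ b := by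
  obtain ⟨k, m, ⟨c, rfl⟩, h⟩ := Nat.exists_eq_two_pow_mul_odd hn
  exact ⟨k, 2 ^ (k + 1) * c, by rw [h]; ring, dvd_mul_right _ _⟩

end Cfsg.Agent.H89.RV
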