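import Mathlib
import Cfsg.Agent.H89.RV.Arith

/-!
# The group of block matrices over the fixed field of the odd automorphisms (helper89, S4311 / S3851)

`F` a finite field of odd order, `F₀ = fixF F` the fixed field of the automorphisms of odd order, `n = 2 ^ k + b` with
`2 ^ (k + 1) ∣ b`: the subgroup `blkG F k b` of the block matrices `diag(A, B)` over `F₀` has odd index in `GL_n(F)`; it is
fixed by the automorphisms of odd order and centralised by the block scalars `bs d = diag(d, 1)`.
-/

set_option autoImplicit false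

namespace Cfsg.Agent.H89.RV

open Matrix Subgroup

section field

variable (F : Type*) [Field F] [Finite F]

theorem ringEquiv_comm (σ τ : F ≃+* F) : σ * τ = τ * σ := by
  have := Fintype.ofFinite F
  obtain ⟨p, hp⟩ := CharP.exists F
  have hpp : p.Prime := CharP.char_is_prime F p
  have : Fact p.Prime := ⟨hpp⟩
  let : Algebra (ZMod p) F := ZMod.algebra F p
  have key : ∀ f g : Gal(F/ZMod p), f * g = g * f := fun f g => by
    have hc : IsCyclic Gal(F/ZMod p) := inferInstance
    exact hc.isMulCommutative.is_comm.comm f g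
  let e : (F ≃+* F) → Gal(F/ZMod p) := fun f => AlgEquiv.ofRingEquiv (f := f) fun x => by
    have : (f : F →+* F).comp (algebraMap (ZMod p) F) = algebraMap (ZMod p) F := Subsingleton.elim _ _
    exact RingHom.congr_fun this x
  have h := key (e σ) (e τ)
  ext x
  exact DFunLike.congr_fun h x

/-- the automorphisms of odd order -/
def oddAut : Subgroup (F ≃+* F) where
  carrier := {σ | Odd (orderOf σ)}
  one_mem' := by simp
  mul_mem' := by
    intro σ τ hσ hτ
    have h := (show Commute σ τ from ringEquiv_comm F σ τ).orderOf_mul_dvd_mul_orderOf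
    exact Odd.of_dvd_nat (hσ.mul hτ) h
  inv_mem' := by
    intro σ hσ
    show Odd (orderOf σ⁻¹)
    rw [orderOf_inv]
    exact hσ

instance : Finite (F ≃+* F) := Finite.of_injective (fun f : F ≃+* F => (f : F → F)) DFunLike.coe_injective

theorem odd_card_oddAut : Odd (Nat.card (oddAut F)) := by
  rw [← Nat.not_even_iff_odd]
  intro h
  have : Fact (Nat.Prime 2) := ⟨Nat.prime_two⟩
  obtain ⟨x, hx⟩ := exists_prime_orderOf_dvd_card' 2 (even_iff_two_dvd.1 h)
  have h1 : Odd (orderOf (x : F ≃+* F)) := x.2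
  rw [orderOf_coe, hx] at h1
  exact absurd h1 (by decide)

/-- the fixed field of the automorphisms of odd order -/
def fixF : Subfield F := FixedPoints.subfield (oddAut F) F

theorem mem_fixF {x : F} : x ∈ fixF F ↔ ∀ σ : F ≃+* F, Odd (orderOf σ) → σ x = x := by
  constructor
  · intro h σ hσ
    exact h ⟨σ, hσ⟩
  · intro h σ
    exact h σ.1 σ.2

end field

section field2

variable (F : Type*) [Field F] [Fintype F]

theorem exists_odd_pow [Fintype (fixF F)] : ∃ m : ℕ, Odd m ∧ Fintype.card F = Fintype.card (fixF F) ^ m := by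
  have := Fintype.ofFinite (oddAut F)
  have h : Module.finrank (FixedPoints.subfield (oddAut F) F) F = Fintype.card (oddAut F) :=
    FixedPoints.finrank_eq_card (oddAut F) F
  refine ⟨Module.finrank (fixF F) F, ?_, Module.card_eq_pow_finrank⟩
  change Odd (Module.finrank (FixedPoints.subfield (oddAut F) F) F)
  rw [h, ← Nat.card_eq_fintype_card]
  exact odd_card_oddAut F

end field2

section blocks

variable {F : Type*} [Field F] {a b : ℕ}

/-- block diagonal matrices -/
def bl (a b : ℕ) (F : Type*) [Field F] : GL (Fin a) F × GL (Fin b) F →* GL (Fin a ⊕ Fin b) F where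
  toFun x := ⟨fromBlocks x.1 0 0 x.2, fromBlocks ((x.1⁻¹ : GL (Fin a) F) : Matrix (Fin a) (Fin a) F) 0 0
      ((x.2⁻¹ : GL (Fin b) F) : Matrix (Fin b) (Fin b) F), by
      rw [fromBlocks_multiply]
      rw [Matrix.mul_zero, Matrix.zero_mul, Matrix.mul_zero, Matrix.zero_mul, Matrix.mul_zero, Matrix.mul_zero, ← Units.val_mul,
        ← Units.val_mul, mul_inv_cancel, mul_inv_cancel]
      simp only [add_zero, zero_add, Units.val_one]
      exact fromBlocks_one, by
      rw [fromBlocks_multiply]
      rw [Matrix.mul_zero, Matrix.zero_mul, Matrix.mul_zero, Matrix.zero_mul, Matrix.mul_zero, Matrix.mul_zero, ← Units.val_mul,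
        ← Units.val_mul, inv_mul_cancel, inv_mul_cancel]
      simp only [add_zero, zero_add, Units.val_one]
      exact fromBlocks_one⟩
  map_one' := by
    apply Units.ext
    exact fromBlocks_one
  map_mul' x y := by
    apply Units.ext
    show fromBlocks ((x.1 * y.1 : GL (Fin a) F) : Matrix (Fin a) (Fin a) F) 0 0
      ((x.2 * y.2 : GL (Fin b) F) : Matrix (Fin b) (Fin b) F) =
        fromBlocks (x.1 : Matrix (Fin a) (Fin a) F) 0 0 (x.2 : Matrix (Fin b) (Fin b) F) *
          fromBlocks (y.1 : Matrix (Fin a) (Fin a) F) 0 0 (y.2 : Matrix (Fin b) (Fin b) F)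
    rw [fromBlocks_multiply, Matrix.mul_zero, Matrix.zero_mul, Matrix.mul_zero, Matrix.zero_mul, Matrix.mul_zero,
      Matrix.mul_zero, add_zero, add_zero, add_zero, zero_add, Units.val_mul, Units.val_mul]

theorem coe_bl (x : GL (Fin a) F × GL (Fin b) F) :
    (bl a b F x : Matrix (Fin a ⊕ Fin b) (Fin a ⊕ Fin b) F) = fromBlocks x.1 0 0 x.2 := rfl

/-- reindexing -/
noncomputable def ri (a b : ℕ) (F : Type*) [Field F] : GL (Fin a ⊕ Fin b) F ≃* GL (Fin (a + b)) F :=
  Units.mapEquiv (reindexAlgEquiv F F finSumFinEquiv).toMulEquiv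

theorem coe_ri (x : GL (Fin a ⊕ Fin b) F) :
    (ri a b F x : Matrix (Fin (a + b)) (Fin (a + b)) F) =
      reindex finSumFinEquiv finSumFinEquiv (x : Matrix (Fin a ⊕ Fin b) (Fin a ⊕ Fin b) F) := rfl

theorem bl_injective : Function.Injective (bl a b F) := by
  intro x y h
  have h1 := congrArg (fun u : GL (Fin a ⊕ Fin b) F => (u : Matrix (Fin a ⊕ Fin b) (Fin a ⊕ Fin b) F)) h
  simp only [coe_bl] at h1
  rw [fromBlocks_inj] at h1
  exact Prod.ext (Units.ext h1.1) (Units.ext h1.2.2.2)

theorem bl_comm (d : Fˣ) (x : GL (Fin a) F × GL (Fin b) F) :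
    bl a b F (GeneralLinearGroup.scalar (Fin a) d, 1) * bl a b F x =
      bl a b F x * bl a b F (GeneralLinearGroup.scalar (Fin a) d, 1) := by
  rw [← map_mul, ← map_mul]
  congr 1
  refine Prod.ext ?_ ?_
  · apply Units.ext
    show scalar (Fin a) (d : F) * (x.1 : Matrix (Fin a) (Fin a) F) = (x.1 : Matrix (Fin a) (Fin a) F) * scalar (Fin a) (d : F)
    exact (scalar_commute (d : F) (fun r' => Commute.all _ _) _).eq
  · simp

/-- the block scalars `diag(d, 1)` -/
noncomputable def bs (a b : ℕ) {F : Type*} [Field F] (d : Fˣ) : GL (Fin (a + b)) F :=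
  ri a b F (bl a b F (GeneralLinearGroup.scalar (Fin a) d, 1))

theorem det_bs (d : Fˣ) : (bs a b d : Matrix (Fin (a + b)) (Fin (a + b)) F).det = (d : F) ^ a := by
  rw [bs, coe_ri, det_reindex_self, coe_bl, det_fromBlocks_zero₂₁]
  show (scalar (Fin a) (d : F)).det * (1 : Matrix (Fin b) (Fin b) F).det = _
  rw [det_one, mul_one, scalar_apply, det_diagonal, Finset.prod_const, Finset.card_univ, Fintype.card_fin]

variable (F a b)

/-- `GL_a(F₀) × GL_b(F₀) → GL_{a + b}(F)` -/
noncomputable def jj [Finite F] : GL (Fin a) (fixF F) × GL (Fin b) (fixF F) →* GL (Fin (a + b)) F :=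
  ((ri a b F).toMonoidHom.comp (bl a b F)).comp
    (MonoidHom.prodMap (GeneralLinearGroup.map (fixF F).subtype) (GeneralLinearGroup.map (fixF F).subtype))

variable {F}

theorem jj_injective [Finite F] : Function.Injective (jj F a b) := by
  refine ((ri a b F).injective.comp bl_injective).comp ?_
  have h : ∀ n : ℕ, Function.Injective (GeneralLinearGroup.map (n := Fin n) (fixF F).subtype) := by
    intro n x y h
    apply Units.ext
    ext i j
    have h1 := congrArg (fun u : GL (Fin n) F => (u : Matrix (Fin n) (Fin n) F) i j) h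
    exact h1
  exact Prod.map_injective.2 ⟨h a, h b⟩

theorem jj_fix [Finite F] (x : GL (Fin a) (fixF F) × GL (Fin b) (fixF F)) {σ : F ≃+* F} (hσ : Odd (orderOf σ))
    (i j : Fin (a + b)) : σ ((jj F a b x : Matrix (Fin (a + b)) (Fin (a + b)) F) i j) =
      (jj F a b x : Matrix (Fin (a + b)) (Fin (a + b)) F) i j := by
  refine (mem_fixF F).1 ?_ σ hσ
  show (fromBlocks (((x.1 : Matrix (Fin a) (Fin a) (fixF F)).map (fixF F).subtype)) 0 0
    ((x.2 : Matrix (Fin b) (Fin b) (fixF F)).map (fixF F).subtype) (finSumFinEquiv.symm i) (finSumFinEquiv.symm j)) ∈ fixF F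
  rcases finSumFinEquiv.symm i with i | i <;> rcases finSumFinEquiv.symm j with j | j
  · exact (x.1 i j).2
  · exact (fixF F).zero_mem
  · exact (fixF F).zero_mem
  · exact (x.2 i j).2

theorem jj_comm [Finite F] (x : GL (Fin a) (fixF F) × GL (Fin b) (fixF F)) (d : Fˣ) :
    bs a b d * jj F a b x = jj F a b x * bs a b d := by
  have h := congrArg (ri a b F) (bl_comm (a := a) (b := b) d (MonoidHom.prodMap
    (GeneralLinearGroup.map (fixF F).subtype) (GeneralLinearGroup.map (fixF F).subtype) x))
  rw [map_mul (ri a b F), map_mul (ri a b F)] at h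
  exact h

end blocks

/-- **the block matrices over the fixed field contain a Sylow `2`-subgroup** -/
theorem jj_index {F : Type*} [Field F] [Fintype F] (hodd : Odd (Fintype.card F)) {k b : ℕ} (hb : 2 ^ (k + 1) ∣ b) :
    ¬ 2 ∣ (jj F (2 ^ k) b).range.index := by
  have := Fintype.ofFinite (fixF F)
  obtain ⟨m, hm, hF⟩ := exists_odd_pow F
  have h1 := fac_blocks hm hodd hF hb
  have h2 : Nat.card (jj F (2 ^ k) b).range = Nat.card (GL (Fin (2 ^ k)) (fixF F) × GL (Fin b) (fixF F)) :=
    (Nat.card_congr (MonoidHom.ofInjective (jj_injective (2 ^ k) b)).toEquiv).symm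
  have h3 := (jj F (2 ^ k) b).range.card_mul_index
  have h4 : (jj F (2 ^ k) b).range.index ≠ 0 := index_ne_zero_of_finite
  rw [← h3, ← h2, Nat.factorization_mul Nat.card_pos.ne' h4, Finsupp.add_apply] at h1
  intro h
  have := (Nat.prime_two.dvd_iff_one_le_factorization h4).1 h
  omega

end Cfsg.Agent.H89.RV
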